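import Mathlib.Data.Nat.Bitwise
import Mathlib.Algebra.BigOperators.Intervals
import Mathlib.Algebra.BigOperators.GroupWithZero.Finset
import Mathlib.Tactic.Ring
import Mathlib.Tactic.Linarith
import Mathlib.Tactic.Abel

/-!
# linear algebra over `F₂` by bit vectors (helper701, for S5916)

`ph X N n` : the sum of the `X i` over the bits `i < N` of `n`; additive for xor. Certificates are masks.
-/

set_option autoImplicit false

namespace Cfsg.Agent.H701.L16

section
variable {L : Type*} [AddCommGroup L]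

/-- the sum of the `X i` over the bits of `n` below `N` -/
def ph (X : ℕ → L) (N n : ℕ) : L := ∑ i ∈ Finset.range N, if n.testBit i then X i else 0

theorem ph_zero (X : ℕ → L) (N : ℕ) : ph X N 0 = 0 := by
  unfold ph
  exact Finset.sum_eq_zero fun i _ => by simp

theorem ph_xor (h2 : ∀ x : L, x + x = 0) (X : ℕ → L) (N a b : ℕ) : ph X N (a ^^^ b) = ph X N a + ph X N b := by
  unfold ph
  rw [← Finset.sum_add_distrib]
  refine Finset.sum_congr rfl fun i _ => ?_
  rw [Nat.testBit_xor]
  cases a.testBit i <;> cases b.testBit i <;> simp [h2]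

theorem ph_congr {X Y : ℕ → L} {N : ℕ} (h : ∀ i < N, X i = Y i) (n : ℕ) : ph X N n = ph Y N n :=
  Finset.sum_congr rfl fun i hi => by rw [h i (Finset.mem_range.1 hi)]

theorem ph_mono (X : ℕ → L) {M N n : ℕ} (hn : n < 2 ^ M) (hMN : M ≤ N) : ph X N n = ph X M n := by
  unfold ph
  symm
  refine Finset.sum_subset (Finset.range_subset_range.2 hMN) fun i _ hi => ?_
  rw [Finset.mem_range, not_lt] at hi
  rw [Nat.testBit_lt_two_pow (hn.trans_le (Nat.pow_le_pow_right (by norm_num) hi))]
  simp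

theorem ph_shift (X : ℕ → L) (N m n : ℕ) : ph X (N + m) (n <<< m) = ph (fun i => X (i + m)) N n := by
  unfold ph
  rw [add_comm N m, Finset.sum_range_add]
  rw [Finset.sum_eq_zero (s := Finset.range m), zero_add]
  · refine Finset.sum_congr rfl fun i _ => ?_
    rw [Nat.testBit_shiftLeft]
    simp [add_comm m i]
  · intro i hi
    rw [Finset.mem_range] at hi
    rw [Nat.testBit_shiftLeft]
    simp [not_le.2 hi]

theorem ph_two_pow (X : ℕ → L) {N i : ℕ} (hi : i < N) : ph X N (1 <<< i) = X i := by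
  obtain ⟨k, rfl⟩ : ∃ k, N = (k + 1) + i := ⟨N - i - 1, by omega⟩
  rw [ph_shift]
  unfold ph
  rw [Finset.sum_eq_single 0]
  · simp
  · intro b _ hb
    have : Nat.testBit 1 b = false := by
      rw [← pow_zero 2, Nat.testBit_two_pow]
      simp [Ne.symm hb]
    simp [this]
  · simp

/-- one step of the binary recursion -/
theorem ph_succ (X : ℕ → L) (f n : ℕ) :
    ph X (f + 1) n = (if n % 2 = 1 then X 0 else 0) + ph (fun i => X (i + 1)) f (n / 2) := by
  unfold ph
  rw [Finset.sum_range_succ']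
  rw [add_comm]
  congr 1
  · rw [Nat.testBit_zero]
    simp
  · refine Finset.sum_congr rfl fun i _ => ?_
    rw [Nat.testBit_succ]

/-- additive functions of `ph` -/
theorem ph_map {M : Type*} [AddCommGroup M] (T : L →+ M) (X : ℕ → L) (N n : ℕ) :
    T (ph X N n) = ph (fun i => T (X i)) N n := by
  unfold ph
  rw [map_sum]
  refine Finset.sum_congr rfl fun i _ => ?_
  split
  · rfl
  · exact map_zero T

/-! ### xor of a selection -/

/-- the xor of the elements of `l` at the bits of `K` -/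
noncomputable def xs (l : List ℕ) : ℕ → ℕ :=
  List.rec (fun _ => 0)
    (fun r _ ih K => Nat.xor (bif Nat.beq (Nat.mod K 2) 1 then r else 0) (ih (Nat.div K 2))) l

theorem ph_xs (h2 : ∀ x : L, x + x = 0) (X : ℕ → L) (N : ℕ) :
    ∀ (l : List ℕ) (_ : ∀ r ∈ l, ph X N r = 0) (K : ℕ), ph X N (xs l K) = 0
  | [], _, _ => ph_zero X N
  | r :: l, h, K => by
    have h1 : ph X N (xs (r :: l) K) = ph X N ((bif Nat.beq (Nat.mod K 2) 1 then r else 0) ^^^ xs l (Nat.div K 2)) := rfl
    rw [h1, ph_xor h2, ph_xs h2 X N l (fun s hs => h s (List.mem_cons_of_mem _ hs)), add_zero]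
    cases Nat.beq (Nat.mod K 2) 1
    · exact ph_zero X N
    · exact h r List.mem_cons_self

/-- the xor of the `1 <<< f o`, `o ∈ l` -/
noncomputable def xb (f : ℕ → ℕ) (l : List ℕ) : ℕ :=
  List.rec 0 (fun o _ ih => Nat.xor (Nat.shiftLeft 1 (f o)) ih) l

theorem ph_xb (h2 : ∀ x : L, x + x = 0) (X : ℕ → L) (N : ℕ) (f : ℕ → ℕ) :
    ∀ (l : List ℕ) (_ : ∀ o ∈ l, f o < N), ph X N (xb f l) = (l.map fun o => X (f o)).sum
  | [], _ => ph_zero X N
  | o :: l, h => by
    have h1 : ph X N (xb f (o :: l)) = ph X N ((1 <<< f o) ^^^ xb f l) := rfl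
    rw [h1, ph_xor h2, ph_two_pow X (h o List.mem_cons_self), ph_xb h2 X N f l fun s hs => h s (List.mem_cons_of_mem _ hs),
      List.map_cons, List.sum_cons]

/-- the xor of the `g i`, `i` a bit of `n`, starting at `i`, with fuel `f` -/
noncomputable def adl (g : ℕ → ℕ) (f : ℕ) : ℕ → ℕ → ℕ :=
  Nat.rec (fun _ _ => 0)
    (fun _ ih i n => Nat.xor (bif Nat.beq (Nat.mod n 2) 1 then g i else 0) (ih (Nat.succ i) (Nat.div n 2))) f

theorem ph_adl (h2 : ∀ x : L, x + x = 0) {M : Type*} [AddCommGroup M] (T : M →+ L) (X : ℕ → M) (Y : ℕ → L) (N : ℕ)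
    (g : ℕ → ℕ) : ∀ (f i n : ℕ) (_ : ∀ j < f, T (X (i + j)) = ph Y N (g (i + j))),
    ph Y N (adl g f i n) = T (ph (fun j => X (i + j)) f n)
  | 0, _, _, _ => by
    unfold ph
    simp [adl]
  | f + 1, i, n, h => by
    have h1 : ph Y N (adl g (f + 1) i n) =
        ph Y N ((bif Nat.beq (Nat.mod n 2) 1 then g i else 0) ^^^ adl g f (Nat.succ i) (Nat.div n 2)) := rfl
    have h3 : (fun j => X (i + (j + 1))) = fun j => X (i.succ + j) := by
      funext j
      rw [Nat.succ_eq_add_one, add_assoc, add_comm j 1]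
    rw [h1, ph_xor h2, ph_adl h2 T X Y N g f (Nat.succ i) (Nat.div n 2) fun j hj => by
      have := h (j + 1) (by omega)
      rwa [show i + (j + 1) = i.succ + j by rw [Nat.succ_eq_add_one]; omega] at this,
      ph_succ, map_add, h3]
    congr 1
    by_cases hn : n % 2 = 1
    · have : Nat.beq (Nat.mod n 2) 1 = true := by rw [Nat.beq_eq]; exact hn
      rw [this, if_pos hn]
      exact (h 0 (by omega)).symm
    · have : Nat.beq (Nat.mod n 2) 1 = false := by
        rw [← Bool.not_eq_true, Nat.beq_eq]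
        exact hn
      rw [this, if_neg hn, map_zero]
      exact ph_zero Y N

/-! ### the bracket of two vectors given by 37 bits -/

/-- the number of the bracket of two vectors (37 bits each): rows `k`, columns `j > k`, bit `37 k + j` -/
noncomputable def wd (f : ℕ) : ℕ → ℕ → ℕ → ℕ :=
  Nat.rec (fun _ _ _ => 0)
    (fun _ ih o u w => Nat.xor (Nat.shiftLeft (Nat.xor (bif Nat.beq (Nat.mod u 2) 1 then Nat.div w 2 else 0)
      (bif Nat.beq (Nat.mod w 2) 1 then Nat.div u 2 else 0)) (Nat.succ o)) (ih (Nat.add o 38) (Nat.div u 2) (Nat.div w 2))) f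

theorem cond_beq {n : ℕ} (a b : ℕ) : (bif Nat.beq (Nat.mod n 2) 1 then a else b) = if n % 2 = 1 then a else b := by
  by_cases hn : n % 2 = 1
  · have : Nat.beq (Nat.mod n 2) 1 = true := by rw [Nat.beq_eq]; exact hn
    rw [this, if_pos hn]
    rfl
  · have : Nat.beq (Nat.mod n 2) 1 = false := by
      rw [← Bool.not_eq_true, Nat.beq_eq]
      exact hn
    rw [this, if_neg hn]
    rfl

/-- the brackets of the `X i`, `i < 37`, as one sequence -/
def bX (br : L →+ L →+ L) (X : ℕ → L) (m : ℕ) : L := br (X (m / 37)) (X (m % 37))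

theorem ph_wd (h2 : ∀ x : L, x + x = 0) (br : L →+ L →+ L) (alt : ∀ x, br x x = 0) (sym : ∀ x y, br x y = br y x)
    (X : ℕ → L) : ∀ (f k u w : ℕ) (_ : k + f = 37) (_ : u < 2 ^ f) (_ : w < 2 ^ f),
    ph (bX br X) 1369 (wd f (38 * k) u w) = br (ph (fun j => X (k + j)) f u) (ph (fun j => X (k + j)) f w)
  | 0, k, u, w, _, _, _ => by
    unfold ph
    simp [wd]
  | f + 1, k, u, w, hk, hu, hw => by
    have h1 : ph (bX br X) 1369 (wd (f + 1) (38 * k) u w) =
        ph (bX br X) 1369 ((((bif Nat.beq (Nat.mod u 2) 1 then w / 2 else 0) ^^^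
          (bif Nat.beq (Nat.mod w 2) 1 then u / 2 else 0)) <<< (38 * k + 1)) ^^^ wd f (38 * k + 38) (u / 2) (w / 2)) := rfl
    have h3 : (fun j => X (k + (j + 1))) = fun j => X (k + 1 + j) := by
      funext j
      rw [add_assoc, add_comm j 1]
    have hu' : u / 2 < 2 ^ f := by
      rw [Nat.div_lt_iff_lt_mul (by norm_num), ← pow_succ]
      exact hu
    have hw' : w / 2 < 2 ^ f := by
      rw [Nat.div_lt_iff_lt_mul (by norm_num), ← pow_succ]
      exact hw
    have key : ∀ z < 2 ^ f, ph (bX br X) 1369 (z <<< (38 * k + 1)) = br (X k) (ph (fun j => X (k + 1 + j)) f z) := by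
      intro z hz
      have h4 : 1369 = (1369 - (38 * k + 1)) + (38 * k + 1) := by omega
      rw [h4, ph_shift, ph_mono _ hz (by omega), ph_map]
      refine ph_congr (fun j hj => ?_) z
      unfold bX
      rw [show (j + (38 * k + 1)) / 37 = k by omega, show (j + (38 * k + 1)) % 37 = k + 1 + j by omega]
    rw [h1, ph_xor h2, show 38 * k + 38 = 38 * (k + 1) by ring,
      ph_wd h2 br alt sym X f (k + 1) (u / 2) (w / 2) (by omega) hu' hw', cond_beq, cond_beq,
      ph_succ (fun j => X (k + j)) f u, ph_succ (fun j => X (k + j)) f w, h3, add_zero]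
    set P := ph (fun j => X (k + 1 + j)) f (u / 2) with hP
    set Q := ph (fun j => X (k + 1 + j)) f (w / 2) with hQ
    have hz : ∀ z < 2 ^ f, ∀ z' < 2 ^ f, ph (bX br X) 1369 ((z ^^^ z') <<< (38 * k + 1)) =
        br (X k) (ph (fun j => X (k + 1 + j)) f z) + br (X k) (ph (fun j => X (k + 1 + j)) f z') := by
      intro z hz z' hz'
      rw [key _ (Nat.xor_lt_two_pow hz hz'), ph_xor h2, map_add]
    have h0 : (0 : ℕ) < 2 ^ f := by positivity
    by_cases hu1 : u % 2 = 1 <;> by_cases hw1 : w % 2 = 1 <;>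
      simp only [hu1, hw1, if_true, if_false, hz _ hw' _ hu', hz _ hw' _ h0, hz _ h0 _ hu', hz _ h0 _ h0, ph_zero, ← hP,
        ← hQ, map_add, map_zero, AddMonoidHom.add_apply, alt, AddMonoidHom.zero_apply, zero_add, add_zero] <;>
      rw [sym P (X k)] <;> abel

end

end Cfsg.Agent.H701.L16
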