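import Cfsg.Agent.H701.L16.Bit
import Mathlib.Algebra.Field.Basic
import Mathlib.Data.Fintype.Card
import Mathlib.Tactic.LinearCombination
import Mathlib.Tactic.IntervalCases

/-!
# the field of 16 elements by numbers below 16 (helper701, for S5916)
-/

set_option autoImplicit false

namespace Cfsg.Agent.H701.L16

/-- the multiplication table -/
def T16 : ℕ := 0xa5783ce1b4692df05ba48679c23d1fe07ae36bf258c149d0843fd16a2e957bc0386d92c74f1ae5b0c6b1285f394ed7a0e7f6c5d4a3b28190192a7f4cd5e6b380bc5243ad618f9e70428ef93517dbac6063c914be8d27fa509d15ae26fb73c8402147ed8b9afc5630df9b5713eca86420fedcba98765432100000000000000000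

/-- the multiplication of the field `F₂[ω]`, `ω⁴ = ω + 1` -/
noncomputable def m16 (a b : ℕ) : ℕ := Nat.mod (Nat.shiftRight T16 (Nat.mul 4 (Nat.add a (Nat.mul 16 b)))) 16

theorem m16_lt (a b : ℕ) : m16 a b < 16 := Nat.mod_lt _ (by norm_num)

/-- multiplication by `ω` -/
def Xm (b : ℕ) : ℕ := (2 * b) ^^^ (if 8 ≤ b then 19 else 0)

theorem m16_adl : ∀ a < 16, ∀ b < 16, m16 a b = adl (fun i => Xm^[i] b) 4 0 a := by decide +kernel

theorem Xm_lt : ∀ i < 4, ∀ b < 16, Xm^[i] b < 16 := by decide +kernel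

theorem inv_ex : ∀ n < 16, n ≠ 0 → ∃ m < 16, m16 n m = 1 := by decide +kernel

section
variable {F : Type*} [Field F] {w : F}

/-- the element with the number `n` -/
def dec (w : F) (n : ℕ) : F := ph (fun i => w ^ i) 4 n

theorem dec_xor (h2 : ∀ x : F, x + x = 0) (a b : ℕ) : dec w (a ^^^ b) = dec w a + dec w b := ph_xor h2 _ _ _ _

theorem dec_zero : dec w 0 = 0 := ph_zero _ _

theorem dec_one : dec w 1 = 1 := by
  have := ph_two_pow (fun i => w ^ i) (N := 4) (i := 0) (by norm_num)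
  exact this.trans (pow_zero w)

theorem dec_two : dec w 2 = w := by
  have := ph_two_pow (fun i => w ^ i) (N := 4) (i := 1) (by norm_num)
  exact this.trans (pow_one w)

theorem dec_Xm (h2 : ∀ x : F, x + x = 0) (hw : w ^ 4 = w + 1) {b : ℕ} (hb : b < 16) :
    dec w (Xm b) = w * dec w b := by
  have h2' : (2 : F) = 0 := by
    have := h2 1
    rw [← this]; norm_num
  unfold dec ph Xm
  interval_cases b <;> simp [Finset.sum_range_succ, Nat.testBit, Nat.shiftRight_eq_div_pow] <;>
    first | ring1 | linear_combination -hw | linear_combination -hw - w * h2'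

theorem dec_m16 (h2 : ∀ x : F, x + x = 0) (hw : w ^ 4 = w + 1) {a b : ℕ} (ha : a < 16) (hb : b < 16) :
    dec w (m16 a b) = dec w a * dec w b := by
  rw [m16_adl a ha b hb]
  have key : ∀ i < 4, dec w (Xm^[i] b) = w ^ i * dec w b := by
    intro i hi
    induction i with
    | zero => simp
    | succ i ih =>
      rw [Function.iterate_succ_apply', dec_Xm h2 hw (Xm_lt i (by omega) b hb), ih (by omega)]
      ring
  have h := ph_adl (L := F) (M := F) h2 (AddMonoidHom.mulRight (dec w b)) (fun i => w ^ i) (fun i => w ^ i) 4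
    (fun i => Xm^[i] b) 4 0 a (fun j hj => by
      rw [zero_add]
      exact (key j hj).symm)
  refine Eq.trans h ?_
  simp only [zero_add]
  rfl

theorem dec_ne (h2 : ∀ x : F, x + x = 0) (hw : w ^ 4 = w + 1) {n : ℕ} (hn : n < 16) (h0 : n ≠ 0) : dec w n ≠ 0 := by
  obtain ⟨m, hm, h⟩ := inv_ex n hn h0
  intro h1
  have := dec_m16 h2 hw hn hm
  rw [h, h1, zero_mul, dec_one] at this
  exact one_ne_zero this

theorem dec_inj (h2 : ∀ x : F, x + x = 0) (hw : w ^ 4 = w + 1) {a b : ℕ} (ha : a < 16) (hb : b < 16)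
    (h : dec w a = dec w b) : a = b := by
  by_contra hab
  have h1 : a ^^^ b ≠ 0 := fun h => hab (Nat.xor_eq_zero_iff.1 h)
  refine dec_ne h2 hw (Nat.xor_lt_two_pow (n := 4) ha hb) h1 ?_
  rw [dec_xor h2, h, h2]

theorem dec_surj [Fintype F] (h2 : ∀ x : F, x + x = 0) (hw : w ^ 4 = w + 1) (hF : Fintype.card F = 16) (x : F) :
    ∃ n < 16, dec w n = x := by
  classical
  have h1 : (Finset.image (dec w) (Finset.range 16)) = Finset.univ := by
    rw [← Finset.card_eq_iff_eq_univ, Finset.card_image_of_injOn, Finset.card_range, hF]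
    intro a ha b hb h
    exact dec_inj h2 hw (by simpa using ha) (by simpa using hb) h
  have h3 : x ∈ Finset.image (dec w) (Finset.range 16) := by rw [h1]; exact Finset.mem_univ x
  obtain ⟨n, hn, h⟩ := Finset.mem_image.1 h3
  exact ⟨n, Finset.mem_range.1 hn, h⟩

/-! ### vectors and matrices -/

/-- the action of the matrix with the number `g` on the vector with the number `v` -/
noncomputable def act (g v : ℕ) : ℕ :=
  Nat.add (Nat.xor (m16 (Nat.mod g 16) (Nat.mod v 16)) (m16 (Nat.mod (Nat.div g 16) 16) (Nat.div v 16)))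
    (Nat.mul 16 (Nat.xor (m16 (Nat.mod (Nat.div g 256) 16) (Nat.mod v 16)) (m16 (Nat.div g 4096) (Nat.div v 16))))

/-- the determinant -/
noncomputable def dt (g : ℕ) : ℕ :=
  Nat.xor (m16 (Nat.mod g 16) (Nat.div g 4096)) (m16 (Nat.mod (Nat.div g 16) 16) (Nat.mod (Nat.div g 256) 16))

/-- the symplectic form -/
noncomputable def om (v u : ℕ) : ℕ :=
  Nat.xor (m16 (Nat.mod v 16) (Nat.div u 16)) (m16 (Nat.div v 16) (Nat.mod u 16))

theorem xor_lt {a b : ℕ} (ha : a < 16) (hb : b < 16) : Nat.xor a b < 16 := Nat.xor_lt_two_pow (n := 4) ha hb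

theorem act_lt (g v : ℕ) : act g v < 256 := by
  have h1 := xor_lt (m16_lt (Nat.mod g 16) (Nat.mod v 16)) (m16_lt (Nat.mod (Nat.div g 16) 16) (Nat.div v 16))
  have h2 := xor_lt (m16_lt (Nat.mod (Nat.div g 256) 16) (Nat.mod v 16)) (m16_lt (Nat.div g 4096) (Nat.div v 16))
  show (Nat.xor _ _) + 16 * (Nat.xor _ _) < 256
  omega

theorem dec_om (h2 : ∀ x : F, x + x = 0) (hw : w ^ 4 = w + 1) {v u : ℕ} (hv : v < 256) (hu : u < 256) :
    dec w (om v u) = dec w (v % 16) * dec w (u / 16) + dec w (v / 16) * dec w (u % 16) := by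
  have h := dec_xor (w := w) h2 (m16 (v % 16) (u / 16)) (m16 (v / 16) (u % 16))
  rw [dec_m16 h2 hw (by omega) (by omega), dec_m16 h2 hw (by omega) (by omega)] at h
  exact h

variable {L : Type*} [AddCommGroup L]

/-- the vectors by numbers -/
def cc (w : F) (c : F → F → L) (v : ℕ) : L := c (dec w (v % 16)) (dec w (v / 16))

omit [AddCommGroup L] in
theorem cc_act (h2 : ∀ x : F, x + x = 0) (hw : w ^ 4 = w + 1) (c : F → F → L) {g v : ℕ} (hg : g < 65536) (hv : v < 256) :
    cc w c (act g v) = c (dec w (g % 16) * dec w (v % 16) + dec w (g / 16 % 16) * dec w (v / 16))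
      (dec w (g / 256 % 16) * dec w (v % 16) + dec w (g / 4096) * dec w (v / 16)) := by
  have h1 := xor_lt (m16_lt (Nat.mod g 16) (Nat.mod v 16)) (m16_lt (Nat.mod (Nat.div g 16) 16) (Nat.div v 16))
  have h3 : act g v % 16 = m16 (g % 16) (v % 16) ^^^ m16 (g / 16 % 16) (v / 16) := by
    show ((Nat.xor _ _) + 16 * (Nat.xor _ _)) % 16 = Nat.xor _ _
    rw [Nat.add_mul_mod_self_left]
    exact Nat.mod_eq_of_lt h1
  have h4 : act g v / 16 = m16 (g / 256 % 16) (v % 16) ^^^ m16 (g / 4096) (v / 16) := by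
    show ((Nat.xor _ _) + 16 * (Nat.xor _ _)) / 16 = Nat.xor _ _
    rw [Nat.add_mul_div_left _ _ (by norm_num)]
    have : Nat.xor (m16 (Nat.mod g 16) (Nat.mod v 16)) (m16 (Nat.mod (Nat.div g 16) 16) (Nat.div v 16)) / 16 = 0 :=
      Nat.div_eq_of_lt h1
    rw [this, zero_add]
    rfl
  unfold cc
  rw [h3, h4, dec_xor h2, dec_xor h2, dec_m16 h2 hw (by omega) (by omega), dec_m16 h2 hw (by omega) (by omega),
    dec_m16 h2 hw (by omega) (by omega), dec_m16 h2 hw (by omega) (by omega)]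

/-! ### the base circle -/

/-- the vectors of the base circle: `y₀ᵏ v₀`, `y₀ = (0 1; 1 ω)`, `v₀ = (ω⁸, 0)` -/
def ob (w : F) : ℕ → F × F
  | 0 => (w ^ 8, 0)
  | k + 1 => ((ob w k).2, (ob w k).1 + w * (ob w k).2)

/-- the symplectic form -/
def wf (v u : F × F) : F := v.1 * u.2 + v.2 * u.1

/-- the numbers of the vectors of the base circle -/
def ON : ℕ := 0x5aa22eedd773311113377ddee22aa55005

/-- the number of `ob k` -/
noncomputable def on (k : ℕ) : ℕ := Nat.mod (Nat.shiftRight ON (Nat.mul 8 k)) 256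

theorem on_rec : on 0 = 5 ∧ ∀ k < 16, on (k + 1) % 16 = on k / 16 ∧ on (k + 1) / 16 = (on k % 16) ^^^ m16 2 (on k / 16) := by
  decide +kernel

theorem on_lt (k : ℕ) : on k < 256 := Nat.mod_lt _ (by norm_num)

theorem ob_eq (h2 : ∀ x : F, x + x = 0) (hw : w ^ 4 = w + 1) : ∀ k < 17, ob w k = (dec w (on k % 16), dec w (on k / 16))
  | 0, _ => by
    have h2' : (2 : F) = 0 := by
      have := h2 1
      rw [← this]; norm_num
    rw [on_rec.1]
    show (w ^ 8, (0 : F)) = (dec w 5, dec w 0)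
    rw [dec_zero]
    have h5 : dec w 5 = 1 + w ^ 2 := by
      have := dec_xor (w := w) h2 1 4
      have h4 := ph_two_pow (fun i => w ^ i) (N := 4) (i := 2) (by norm_num)
      have h4' : dec w 4 = w ^ 2 := h4
      rw [dec_one, h4'] at this
      exact this
    rw [h5]
    congr 1
    linear_combination (w ^ 4 + w + 1) * hw + w * h2'
  | k + 1, hk => by
    obtain ⟨h3, h4⟩ := on_rec.2 k (by omega)
    show ((ob w k).2, (ob w k).1 + w * (ob w k).2) = _
    rw [ob_eq h2 hw k (by omega), h3, h4, dec_xor h2, dec_m16 h2 hw (by norm_num)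
      (by have := on_lt k; omega), dec_two]

end

end Cfsg.Agent.H701.L16
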